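import Cfsg.Agent.E8A.TwoD.Mod
import Cfsg.Agent.E8A.Two.Iface
import Cfsg.Agent.E8A.Inf.Tab

/-!
# Case (d) in characteristic 2 (helper42)

* `td : TD`.
-/

set_option autoImplicit false

namespace Cfsg.Agent.E8A.TwoD

open Cfsg Cfsg.Lie Module Cfsg.Agent.E8A.Mc Cfsg.Agent.E8A.Two
open Cfsg.Agent.H952.F4 (MaxAlt ev)
open Equiv Equiv.Perm

universe u

/-- the letters as permutations -/
def pm (n j : ℕ) : Perm (Fin (n + 2)) :=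
  ((([[0, 1, 2], [2, 3, 4, 5, 6], [5, 6, 7], [6, 7, 8], [7, 8, 9]] : List (List ℕ)).getD j []).map (Fin.ofNat (n + 2))).formPerm

/-- products of two transpositions as words -/
def tw (x y : ℕ) : List ℕ := (((
  [[[], [], [0], [1, 0, 1, 1, 1, 1], [1, 1, 0, 1, 1, 1], [1, 1, 1, 0, 1, 1], [1, 1, 1, 1, 0, 1], [2, 1, 1, 1, 1, 0, 1, 2, 2], [3, 3, 1, 1, 1, 1, 0, 1, 3], [0, 1, 1, 2, 4, 1, 0, 0, 3, 3, 1, 1, 1, 2, 1, 0, 1, 2]],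
   [[], [], [0, 0], [1, 0, 0, 1, 1, 1, 1], [1, 1, 0, 0, 1, 1, 1], [1, 1, 1, 0, 0, 1, 1], [1, 1, 1, 1, 0, 0, 1], [2, 1, 1, 1, 1, 0, 0, 1, 2, 2], [3, 3, 1, 1, 1, 1, 0, 0, 1, 3], [0, 0, 1, 1, 2, 4, 1, 0, 3, 3, 1, 1, 1, 2, 1, 0, 0, 1, 2]],
   [[0], [0, 0], [], [0, 1, 0, 0, 1, 1, 1, 1, 0], [0, 1, 1, 0, 0, 1, 1, 1, 0], [0, 1, 1, 1, 0, 0, 1, 1, 0], [0, 1, 1, 1, 1, 0, 0, 1, 0], [0, 1, 2, 1, 1, 0, 0, 1, 0, 1, 2], [0, 3, 3, 1, 1, 1, 1, 0, 0, 1, 0, 3], [1, 1, 2, 4, 0, 1, 0, 0, 1, 3, 3, 1, 1, 2, 1, 0, 1, 2]],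
   [[1, 0, 1, 1, 1, 1], [1, 0, 0, 1, 1, 1, 1], [0, 1, 0, 0, 1, 1, 1, 1, 0], [], [0, 1, 0, 0, 1, 1, 0, 1, 0, 0, 1, 0, 1], [0, 1, 1, 0, 0, 1, 1, 1, 0, 1, 2, 1, 2], [0, 1, 0, 0, 2, 1, 2, 1, 1, 0, 1], [0, 1, 0, 0, 1, 1, 1, 2, 2, 1, 0, 1, 2, 2], [0, 1, 0, 0, 2, 3, 1, 2, 1, 1, 0, 1, 3], [1, 1, 1, 2, 4, 0, 3, 1, 0, 0, 1, 1, 2, 1, 1, 0, 3, 1]],
   [[1, 1, 0, 1, 1, 1], [1, 1, 0, 0, 1, 1, 1], [0, 1, 1, 0, 0, 1, 1, 1, 0], [0, 1, 0, 0, 1, 1, 0, 1, 0, 0, 1, 0, 1], [], [0, 1, 0, 0, 1, 0, 1, 1, 0, 0, 1, 0, 1], [0, 1, 1, 1, 0, 0, 2, 1, 2, 1, 0, 1, 1], [0, 1, 0, 0, 1, 1, 0, 1, 0, 0, 2, 1, 0, 1], [0, 1, 0, 0, 1, 1, 0, 3, 1, 0, 0, 2, 1, 0, 1], [1, 1, 1, 1, 2, 4, 0, 3, 1, 0, 0, 1, 1, 2, 1, 1, 0, 3]],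
   [[1, 1, 1, 0, 1, 1], [1, 1, 1, 0, 0, 1, 1], [0, 1, 1, 1, 0, 0, 1, 1, 0], [0, 1, 1, 0, 0, 1, 1, 1, 0, 1, 2, 1, 2], [0, 1, 0, 0, 1, 0, 1, 1, 0, 0, 1, 0, 1], [], [0, 1, 0, 0, 1, 0, 1, 0, 0, 1, 1, 0, 1], [0, 1, 0, 0, 1, 0, 1, 1, 0, 0, 1, 0, 2, 1], [0, 1, 0, 0, 1, 0, 1, 1, 0, 0, 3, 1, 0, 2, 1], [2, 4, 0, 1, 0, 0, 1, 0, 1, 0, 0, 1, 1, 0, 3, 3, 1]],
   [[1, 1, 1, 1, 0, 1], [1, 1, 1, 1, 0, 0, 1], [0, 1, 1, 1, 1, 0, 0, 1, 0], [0, 1, 0, 0, 2, 1, 2, 1, 1, 0, 1], [0, 1, 1, 1, 0, 0, 2, 1, 2, 1, 0, 1, 1], [0, 1, 0, 0, 1, 0, 1, 0, 0, 1, 1, 0, 1], [], [0, 1, 0, 0, 1, 0, 1, 0, 0, 1, 1, 0, 1, 2], [0, 1, 0, 0, 1, 0, 1, 0, 0, 1, 1, 0, 3, 1, 2], [1, 2, 4, 0, 1, 0, 0, 1, 0, 1, 0, 0, 1, 1, 0, 3, 3]],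
   [[2, 1, 1, 1, 1, 0, 1, 2, 2], [2, 1, 1, 1, 1, 0, 0, 1, 2, 2], [0, 1, 2, 1, 1, 0, 0, 1, 0, 1, 2], [0, 1, 0, 0, 1, 1, 1, 2, 2, 1, 0, 1, 2, 2], [0, 1, 0, 0, 1, 1, 0, 1, 0, 0, 2, 1, 0, 1], [0, 1, 0, 0, 1, 0, 1, 1, 0, 0, 1, 0, 2, 1], [0, 1, 0, 0, 1, 0, 1, 0, 0, 1, 1, 0, 1, 2], [], [0, 1, 0, 0, 1, 0, 1, 0, 0, 1, 1, 0, 1, 2, 3], [4, 0, 1, 0, 0, 1, 0, 1, 0, 0, 1, 1, 0, 1, 2, 3]],
   [[3, 3, 1, 1, 1, 1, 0, 1, 3], [3, 3, 1, 1, 1, 1, 0, 0, 1, 3], [0, 3, 3, 1, 1, 1, 1, 0, 0, 1, 0, 3], [0, 1, 0, 0, 2, 3, 1, 2, 1, 1, 0, 1, 3], [0, 1, 0, 0, 1, 1, 0, 3, 1, 0, 0, 2, 1, 0, 1], [0, 1, 0, 0, 1, 0, 1, 1, 0, 0, 3, 1, 0, 2, 1], [0, 1, 0, 0, 1, 0, 1, 0, 0, 1, 1, 0, 3, 1, 2], [0, 1, 0, 0, 1, 0, 1, 0, 0, 1, 1, 0, 1, 2, 3], [], [3, 4, 0, 1, 0, 0, 1, 0, 1, 0, 0, 1, 1, 0, 1, 2]],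
   [[0, 1, 1, 2, 4, 1, 0, 0, 3, 3, 1, 1, 1, 2, 1, 0, 1, 2], [0, 0, 1, 1, 2, 4, 1, 0, 3, 3, 1, 1, 1, 2, 1, 0, 0, 1, 2], [1, 1, 2, 4, 0, 1, 0, 0, 1, 3, 3, 1, 1, 2, 1, 0, 1, 2], [1, 1, 1, 2, 4, 0, 3, 1, 0, 0, 1, 1, 2, 1, 1, 0, 3, 1], [1, 1, 1, 1, 2, 4, 0, 3, 1, 0, 0, 1, 1, 2, 1, 1, 0, 3], [2, 4, 0, 1, 0, 0, 1, 0, 1, 0, 0, 1, 1, 0, 3, 3, 1], [1, 2, 4, 0, 1, 0, 0, 1, 0, 1, 0, 0, 1, 1, 0, 3, 3], [4, 0, 1, 0, 0, 1, 0, 1, 0, 0, 1, 1, 0, 1, 2, 3], [3, 4, 0, 1, 0, 0, 1, 0, 1, 0, 0, 1, 1, 0, 1, 2], []]] : List (List (List ℕ))).getD x []).getD y [])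

/-- the properties of the letters -/
def PmOk (n : ℕ) : Prop := (∀ j < n - 3, sign (pm n j) = 1 ∧ ∀ x, (pm n j x : ℕ) = gp j x) ∧
  (pm n 0).cycleType = {3} ∧ (pm n 0 * (pm n 2 * 1)).cycleType = {3, 3} ∧ (pm n 1).cycleType = {5} ∧
  ∀ x y : Fin (n + 2), x ≠ y → ltW (n - 3) (tw x y) = true ∧
    ∀ z : Fin (n + 2), (tw x y).foldr gp z = (swap x y (swap 0 1 z) : Fin (n + 2))

theorem pm6 : PmOk 6 := by unfold PmOk; decide +kernel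

theorem pm7 : PmOk 7 := by unfold PmOk; decide +kernel

theorem pm8 : PmOk 8 := by unfold PmOk; decide +kernel

theorem mem_of_swaps {n : ℕ} {S : Subgroup (Perm (Fin (n + 2)))} (h : ∀ x y, x ≠ y → swap x y * swap 0 1 ∈ S)
    (σ : Perm (Fin (n + 2))) : (sign σ = 1 → σ ∈ S) ∧ (sign σ = -1 → swap 0 1 * σ ∈ S) := by
  induction σ using Equiv.Perm.swap_induction_on with
  | one => exact ⟨fun _ => one_mem S, fun e => absurd (sign_one.symm.trans e) (by decide)⟩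
  | swap_mul σ x y hxy ih =>
    rw [Perm.sign_mul, sign_swap hxy, neg_one_mul, neg_eq_iff_eq_neg, neg_inj]
    refine ⟨fun e => ?_, fun e => ?_⟩
    · have := mul_mem (h x y hxy) (ih.2 e)
      rwa [mul_assoc, swap_mul_self_mul] at this
    · have := mul_mem (inv_mem (h x y hxy)) (ih.1 e)
      rwa [mul_inv_rev, swap_inv, swap_inv, mul_assoc] at this

theorem st {F : Type u} [Field F] [Finite F] [CharP F 2] {n : ℕ} (hn : n ≤ 8) (hn' : 6 ≤ n) (h : PmOk n)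
    {φ : Alt (n + 2) →* G8 F} (hφ : NoFx φ) (d3 : Dm φ {3} 134) (d33 : Dm φ {3, 3} 92) (d5 : Dm φ {5} 68) :
    ∃ a : ℕ → End F (L8 F), St (n - 3) a (Inf.kf F) ∧ Fx a (sing (n - 3)) = ⊥ := by
  obtain ⟨h1, h2, h3, h4, h5⟩ := h
  let g : ℕ → Alt (n + 2) := fun j => if e : j < n - 3 then ⟨pm n j, mem_alternatingGroup.2 (h1 j e).1⟩ else 1
  have hg : ∀ j < n - 3, (g j : Perm (Fin (n + 2))) = pm n j := fun j hj => congrArg Subtype.val (dif_pos hj)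
  have hg' : ∀ j < n - 3, ∀ x : Fin (n + 2), ((g j : Perm (Fin (n + 2))) x : ℕ) = gp j x := fun j hj x => by
    rw [hg j hj, (h1 j hj).2]
  obtain ⟨e1, e2, e3⟩ := good_rep (by omega) (by omega) hg' ((LK F).comp φ)
  have e4 : ∀ w, ltW 3 w = true → kd (subF (fun j => ((LK F).comp φ) (g j)) (sing (n - 3))) [fe w] =
      ev (LK F (φ (w.map g).prod)) 1 := fun w hw => by
    have : Kr (subF (fun j => ((LK F).comp φ) (g j)) (sing (n - 3))) [fe w] = End.eigenspace (LK F (φ (w.map g).prod)) 1 :=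
      Submodule.ext fun v => by rw [mem_fe, e2 w (ltW_mono (by omega) hw), End.mem_eigenspace_iff, one_smul]; rfl
    rw [kd, this]; rfl
  have g0 := hg 0 (by omega)
  have g1 := hg 1 (by omega)
  have g2 := hg 2 (by omega)
  refine ⟨_, ⟨e1, ⟨Inf.kf_nondeg, fun j hj x y => ?_⟩, Inf.finrank_L8, ?_, ?_, ?_, ?_⟩, ?_⟩
  · rw [res_lt _ hj]; exact Inf.kf_act _ x y
  · rw [e4 _ rfl]; exact d3 _ (by rw [List.map_singleton, List.prod_singleton, g0, h2])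
  · rw [e4 _ rfl]
    exact d33 _ (by rw [← h3, ← g0, ← g2]; rfl)
  · rw [e4 _ rfl]; exact d5 _ (by rw [List.map_singleton, List.prod_singleton, g1, h4])
  · rw [e4 _ rfl]
    have o1 := e3 _ _ (okA_mono (by omega) (show okA 3 (wpow [0, 1] 7) [] = true by decide +kernel))
    have o2 := e3 _ _ (okA_mono (by omega) (show okA 3 ([1, 0, 0, 1, 0, 1, 1, 0, 1, 1] ++ [0, 1])
      (([0, 1] ++ [0, 1]) ++ [1, 0, 0, 1, 0, 1, 1, 0, 1, 1]) = true by decide +kernel))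
    rw [wpow, List.map_flatten, List.prod_flatten, List.map_replicate, List.map_replicate, List.prod_replicate] at o1
    rw [List.map_append, List.map_append, List.map_append, List.prod_append, List.prod_append, List.prod_append, ← pow_two] at o2
    by_cases e : φ ([0, 1].map g).prod = 1
    · rw [e, Inf.ev_one]; exact Or.inr (Or.inr rfl)
    · rcases Inf.seven_rat (by
        have : (7 : F) = 2 * 3 + 1 := by norm_num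
        rw [this, CharTwo.two_eq_zero, zero_mul, zero_add]; exact one_ne_zero) (by rw [← map_pow, o1]; exact map_one φ) e (by
        rw [← map_pow]
        exact φ.map_isConj (isConj_iff.2 ⟨_, mul_inv_eq_iff_eq_mul.2 o2⟩)) with e' | e'
      exacts [Or.inl e', Or.inr (Or.inl e')]
  · rw [eq_bot_iff]
    intro v hv
    refine hφ v fun σ => ?_
    obtain ⟨τ, h6, h7⟩ := (mem_of_swaps (S := ((stab v).comap φ).map (alternatingGroup _).subtype) (fun x y hxy => by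
      refine ⟨((tw x y).map g).prod, ?_, Equiv.ext fun z => Fin.ext ?_⟩
      · have := wd_of_fix (mem_Fx_sing.1 hv) (h5 x y hxy).1
        rwa [e2 _ (h5 x y hxy).1] at this
      · rw [Perm.mul_apply, ← (h5 x y hxy).2]
        have hw := (h5 x y hxy).1
        generalize tw x y = w at hw
        induction w with
        | nil => rfl
        | cons j w ih =>
          rw [List.map_cons, List.prod_cons, map_mul, Perm.mul_apply, List.foldr_cons, ← ih (ltW_cons hw).2]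
          exact hg' j (ltW_cons hw).1 _) σ).1 (mem_alternatingGroup.1 σ.2)
    rwa [← (Subtype.ext h7 : τ = σ)]

/-- **TD** -/
theorem td : TD.{u} := by
  intro F _ _ _ H n φ _ h8 h10 hφ d3 d33 d5
  obtain rfl | rfl | rfl : n = 6 + 2 ∨ n = 7 + 2 ∨ n = 8 + 2 := by omega
  · obtain ⟨a, h1, h2⟩ := st (by decide) (by decide) pm6 hφ d3 d33 d5
    exact t8 h1 h2
  · obtain ⟨a, h1, h2⟩ := st (by decide) (by decide) pm7 hφ d3 d33 d5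
    have h3 := t9 h1
    rw [show Fx a (sing 4) = ⊥ from h2, finrank_bot] at h3
    exact absurd h3 (by decide)
  · obtain ⟨a, h1, h2⟩ := st (by decide) (by decide) pm8 hφ d3 d33 d5
    exact t10 h1 h2

end Cfsg.Agent.E8A.TwoD
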