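import Cfsg.Agent.E8A.TwoD.D8
import Cfsg.Agent.E8A.TwoD.D9
import Cfsg.Agent.E8A.TwoD.D10

/-!
# Case (d) in characteristic 2: the module argument (helper42)

* `c8`, `c9`, `c10` : simple submodules; `St` : the data; `t8`, `t9`, `t10` : fixed vectors.
-/

set_option autoImplicit false

namespace Cfsg.Agent.E8A.TwoD

open Module Cfsg.Agent.E8A.Mc

universe u

variable {K : Type u} [Field K] [CharP K 2]

section cls

variable {V : Type*} [AddCommGroup V] [Module K V] {a : ℕ → End K V}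

omit [CharP K 2] in
theorem tv_ne {v : V} (h : v ≠ 0) : tv K V v ≠ 0 := fun e => h (by rw [← tv_one (K := K) v, e]; rfl)

theorem ex_tv {M0 : List (ℕ × List ℕ)} {J : ℕ} {zs : List (List ℕ)}
    (h1 : M0.getD J (0, []) = (1, List.replicate zs.length 1)) {v : V} (hv : v ∈ Fx a zs) (h0 : v ≠ 0) :
    ∃ f : X K (md M0 J) →ₗ[K] V, Hom (ops K (md M0 J) (ms M0 J)) (subF a zs) f ∧ f ≠ 0 := by
  rw [md, ms, h1]
  exact ⟨_, hom_tv hv, tv_ne h0⟩

theorem ind_tv {ok : List ℕ → List ℕ → Bool} {k n rr J0 : ℕ} {zs ts : List (List ℕ)} {tab : List (List (ℕ × List ℕ))}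
    {M0 M : List (ℕ × List ℕ)} {I : List (ℕ × ℕ × List ℕ)} (h : upOk ok k n zs ts tab M0 I M rr J0 = true)
    (h1 : M0.getD J0 (0, []) = (1, List.replicate zs.length 1)) {bl : List ℕ} (h2 : (I.getD J0 (0, 0, [])).2.2 = bl)
    (ha : Good ok k a) : ∃ D T, blocksOk D T M bl 0 = true ∧ ∃ Φ : V →ₗ[K] (X K D →ₗ[K] V),
      (∀ v ∈ Fx a zs, Hom (ops K D T) a (Φ v)) ∧ ∀ v, ∃ x, Φ v x = v := by
  rw [upOk, Bool.and_eq_true, md, ms, h1, h2] at h
  obtain ⟨T, g1, Φ, g2, g3⟩ := ind_sound h.1 ha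
  exact ⟨_, T, g1, Φ ∘ₗ tv K V, fun v hv => g2 _ (hom_tv hv), fun v => g3 _ ⟨_, tv_one v⟩⟩

theorem cs8 (ha : Good (okA 3) 3 a) (h0 : ∃ v : V, v ≠ 0) :
    ∃ J < 8, ∃ f : X K (md M8 J) →ₗ[K] V, Hom (ops K (md M8 J) (ms M8 J)) a f ∧ Function.Injective f := by
  obtain ⟨v, hv, h1⟩ := chain ha h0 ch_ok
  obtain ⟨f, h2, h3⟩ := ex_tv (M0 := M0) (J := 0) rfl hv h1
  exact up upU nor8 bad8' ha (nil_z a) h2 h3

theorem cs9 (ha : Good (okA 4) 4 a) (hn : Nil a rho) (h0 : ∃ v : V, v ≠ 0) :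
    ∃ J < 6, ∃ f : X K (md M9 J) →ₗ[K] V, Hom (ops K (md M9 J) (ms M9 J)) a f ∧ Function.Injective f := by
  obtain ⟨J, hJ, f, h1, h2⟩ := cs8 (good_res (by decide) ha) h0
  have h3 := ne_zero_of_inj (nor_all (K := K) nor8 hJ).pos h2
  rcases lt_or_ge J 5 with e | e
  · exact up (allN_spec upN e) nor9 bad9 ha hn h1 h3
  · exact absurd (bad_all bad8 e hJ ((Nil.res (by decide +kernel)).2 hn) h1) h3

theorem cs10 (ha : Good (okA 5) 5 a) (hn : Nil a rho) (h0 : ∃ v : V, v ≠ 0) :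
    ∃ J < 5, ∃ f : X K (md M10 J) →ₗ[K] V, Hom (ops K (md M10 J) (ms M10 J)) a f ∧ Function.Injective f := by
  obtain ⟨J, hJ, f, h1, h2⟩ := cs9 (good_res (by decide) ha) ((Nil.res (by decide +kernel)).2 hn) h0
  exact up (allN_spec upT hJ) nor10 bad10 ha hn h1 (ne_zero_of_inj (nor_all (K := K) nor9 hJ).pos h2)

theorem tri_next {D o k : ℕ} {T : List ℕ} {M : List (ℕ × List ℕ)} (h0 : M.getD 0 (0, []) = (1, List.replicate k 1))
    (h : blkOk D T o (md M 0) (ms M 0) = true) (hq : Fx a (sing k) = ⊥) {F : X K D →ₗ[K] V} (hF : Hom (ops K D T) a F)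
    (hv : Van o F) : Van (o + md M 0) F := by
  rw [md, ms, h0] at h
  rw [md, h0]
  exact hv.next (triv_zero hq (blk h hF hv))

/-- the permutation module `1 / B / 1` -/
theorem one_step [FiniteDimensional K V] {k n J rr J0 : ℕ} {zs ts : List (List ℕ)} {tab : List (List (ℕ × List ℕ))}
    {M0 M : List (ℕ × List ℕ)} {I : List (ℕ × ℕ × List ℕ)} (h : upOk (okA k) k n zs ts tab M0 I M rr J0 = true)
    (h0 : M.getD 0 (0, []) = (1, List.replicate k 1)) (h1 : M0.getD J0 (0, []) = (1, List.replicate zs.length 1))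
    (h2 : (I.getD J0 (0, 0, [])).2.2 = [0, J, 0]) (ha : Good (okA k) k a)
    (ho : (allN k fun j => okA k (wpow [j] 15) []) = true) :
    ∃ Ψ : Fx a zs →ₗ[K] (X K (md M J) →ₗ[K] V ⧸ Fx a (sing k)),
      (∀ c, Hom (ops K (md M J) (ms M J)) (quoOp a _ (inv_Fx ha.out)) (Ψ c)) ∧
        finrank K (LinearMap.ker Ψ) ≤ finrank K (Fx a (sing k)) := by
  obtain ⟨D, T, g1, Φ, g2, g3⟩ := ind_tv h h1 h2 ha
  obtain ⟨b1, g1⟩ := blocks_cons g1
  obtain ⟨b2, g1⟩ := blocks_cons g1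
  obtain ⟨b3, g1⟩ := blocks_cons g1
  have hq := fx_quo ha ho
  have e1 : ∀ c : Fx a zs, Hom (ops K D T) (quoOp a _ (inv_Fx ha.out)) ((Fx a (sing k)).mkQ ∘ₗ Φ c) := fun c =>
    (hom_quo a _ _).comp (g2 _ c.2)
  have e2 := fun c => tri_next h0 b1 hq (e1 c) (van_zero _)
  refine ⟨LinearMap.lcomp K _ (inc K D (0 + md M 0) (md M J)) ∘ₗ LinearMap.llcomp K _ _ _ (Fx a (sing k)).mkQ ∘ₗ Φ ∘ₗ
    (Fx a zs).subtype, fun c => blk b2 (e1 c) (e2 c), ?_⟩
  refine LinearMap.finrank_le_finrank_of_injective (f := ((Fx a zs).subtype ∘ₗ Submodule.subtype _).codRestrict _ fun c => ?_)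
    fun x y e => by have := congrArg Subtype.val e; exact Subtype.ext (Subtype.ext this)
  have e3 := (blocks_nil g1 ▸ tri_next h0 b3 hq (e1 c) ((e2 c).next c.2)).zero
  obtain ⟨x, hx⟩ := g3 c.1
  have e4 : (Fx a (sing k)).mkQ (Φ c.1 x) = 0 := LinearMap.congr_fun e3 x
  rw [hx] at e4
  exact (Submodule.Quotient.mk_eq_zero _).1 e4

end cls

variable {V : Type u} [AddCommGroup V] [Module K V] [FiniteDimensional K V] {a : ℕ → End K V} {β : LinearMap.BilinForm K V}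

theorem s8 (ha : Good (okA 3) 3 a) : ∃ n : ℕ → ℕ,
    finrank K V = n 0 + 4 * n 1 + 4 * n 2 + 6 * n 3 + 14 * n 4 + 20 * n 5 + 20 * n 6 + 64 * n 7 ∧
    kd a [fe [0]] = n 0 + 4 * n 3 + 6 * n 4 + 4 * n 5 + 4 * n 6 + 24 * n 7 ∧
    kd a [fe [0, 2]] = n 0 + 2 * n 1 + 2 * n 2 + 2 * n 3 + 4 * n 4 + 6 * n 5 + 6 * n 6 + 20 * n 7 ∧
    kd a [fe [1]] = n 0 + 2 * n 3 + 2 * n 4 + 4 * n 5 + 4 * n 6 + 12 * n 7 ∧
    kd a [fe [0, 1]] = n 0 + n 1 + n 2 + 2 * n 4 + 2 * n 5 + 2 * n 6 + 10 * n 7 ∧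
    n 0 ≤ finrank K (Fx a (sing 2)) + n 4 + n 5 + n 6 ∧
    n 0 ≤ finrank K (Fx a (sing 3)) + n 3 + n 4 + n 5 + n 6 ∧ (n 5 = 0 → n 6 = 0 → n 7 = 0 → Nil a rho) := by
  obtain ⟨n, -, h⟩ := sol chk8 (tab_sound tab8) (fun _ => True) (fun _ _ _ _ => True) (fun _ _ _ _ _ _ _ => trivial)
    (fun V _ _ _ a ha _ h0 => (cs8 ha h0).imp fun J hJ => ⟨hJ.1, trivial, hJ.2⟩) V a ha trivial
  have e0 : kd a [fe []] = _ := h.f 0 (by decide)
  have e1 : kd a [fe [0]] = _ := h.f 1 (by decide)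
  have e2 : kd a [fe [0, 2]] = _ := h.f 2 (by decide)
  have e3 : kd a [fe [1]] = _ := h.f 3 (by decide)
  have e4 : kd a [fe [0, 1]] = _ := h.f 4 (by decide)
  have e5 := (kd_fox ha fox7).trans (Nat.add_le_add_left (h.z 0 (by decide)) _)
  have e6 := (kd_fox ha fox8).trans (Nat.add_le_add_left (h.z 1 (by decide)) _)
  rw [kd_nil] at e0
  simp only [Finset.sum_range_succ, Finset.sum_range_zero, en, F8, Z8, List.getD_cons_zero, List.getD_cons_succ] at e0 e1 e2 e3 e4 e5 e6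
  refine ⟨n, by omega, by omega, by omega, by omega, by omega, by omega, by omega, fun g5 g6 g7 => h.nil fun J hJ e => ?_⟩
  have : ¬ J < 5 := fun e' => Bool.false_ne_true (e.symm.trans (Nat.blt_eq.mpr e'))
  obtain rfl | rfl | rfl : J = 5 ∨ J = 6 ∨ J = 7 := by omega
  exacts [g5, g6, g7]

theorem s9 (m : ℕ → Prop) (P : ∀ (V : Type u) [AddCommGroup V] [Module K V], (ℕ → End K V) → Prop)
    (hq : ∀ (V : Type u) [AddCommGroup V] [Module K V] (a : ℕ → End K V) (W : Submodule K V) (hW : Inv a W),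
      P V a → P (V ⧸ W) (quoOp a W hW))
    (hm : ∀ (V : Type u) [AddCommGroup V] [Module K V] [FiniteDimensional K V] (a : ℕ → End K V), P V a → ∀ J < 6,
      ∀ f : X K (md M9 J) →ₗ[K] V, Hom (ops K (md M9 J) (ms M9 J)) a f → Function.Injective f → m J)
    (ha : Good (okA 4) 4 a) (hn : Nil a rho) (hP : P V a) : ∃ n : ℕ → ℕ, (∀ J, ¬ m J → n J = 0) ∧
    finrank K V = n 0 + 8 * n 1 + 8 * n 2 + 8 * n 3 + 26 * n 4 + 48 * n 5 ∧
    kd a [fe [0]] = n 0 + 6 * n 1 + 14 * n 4 + 20 * n 5 ∧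
    kd a [fe [0, 2]] = n 0 + 4 * n 1 + 4 * n 2 + 4 * n 3 + 8 * n 4 + 16 * n 5 ∧
    kd a [fe [1]] = n 0 + 4 * n 1 + 6 * n 4 + 8 * n 5 ∧
    kd a [fe [0, 1]] = n 0 + 2 * n 1 + 2 * n 2 + 2 * n 3 + 2 * n 4 + 6 * n 5 ∧
    n 0 + 2 * n 1 ≤ finrank K (Fx a (sing 2)) + n 4 + 2 * n 5 ∧
    n 0 ≤ finrank K (Fx a (sing 4)) + 2 * n 4 := by
  obtain ⟨n, h', h⟩ := sol chk9 (tab_sound tab9) m (fun V _ _ a => Nil a rho ∧ P V a)
    (fun V _ _ a W hW h => ⟨h.1.of_surj (hom_quo a W hW) W.mkQ_surjective, hq V a W hW h.2⟩)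
    (fun V _ _ _ a ha h h0 => by
      obtain ⟨J, hJ, f, h1, h2⟩ := cs9 ha h.1 h0
      exact ⟨J, hJ, hm V a h.2 J hJ f h1 h2, f, h1, h2⟩) V a ha ⟨hn, hP⟩
  have e0 : kd a [fe []] = _ := h.f 0 (by decide)
  have e1 : kd a [fe [0]] = _ := h.f 1 (by decide)
  have e2 : kd a [fe [0, 2]] = _ := h.f 2 (by decide)
  have e3 : kd a [fe [1]] = _ := h.f 3 (by decide)
  have e4 : kd a [fe [0, 1]] = _ := h.f 4 (by decide)
  have e5 := (kd_fox ha fox7').trans (Nat.add_le_add_left (h.z 0 (by decide)) _)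
  have e6 := (kd_fox ha fox9).trans (Nat.add_le_add_left (h.z 1 (by decide)) _)
  rw [kd_nil] at e0
  simp only [Finset.sum_range_succ, Finset.sum_range_zero, en, F9, Z9, List.getD_cons_zero, List.getD_cons_succ] at e0 e1 e2 e3 e4 e5 e6
  exact ⟨n, h', by omega, by omega, by omega, by omega, by omega, by omega, by omega⟩

theorem s10 (ha : Good (okA 5) 5 a) (hn : Nil a rho) : ∃ n : ℕ → ℕ,
    finrank K V = n 0 + 8 * n 1 + 16 * n 2 + 26 * n 3 + 48 * n 4 ∧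
    kd a [fe [0]] = n 0 + 6 * n 1 + 14 * n 3 + 20 * n 4 ∧
    kd a [fe [0, 2]] = n 0 + 4 * n 1 + 8 * n 2 + 8 * n 3 + 16 * n 4 ∧
    kd a [fe [1]] = n 0 + 4 * n 1 + 6 * n 3 + 8 * n 4 ∧
    kd a [fe [0, 1]] = n 0 + 2 * n 1 + 4 * n 2 + 2 * n 3 + 6 * n 4 ∧
    n 0 ≤ finrank K (Fx a (sing 5)) + n 1 + n 3 := by
  obtain ⟨n, -, h⟩ := sol chk10 (tab_sound tab10) (fun _ => True) (fun V _ _ a => Nil a rho)
    (fun V _ _ a W hW h => h.of_surj (hom_quo a W hW) W.mkQ_surjective)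
    (fun V _ _ _ a ha h h0 => (cs10 ha h h0).imp fun J hJ => ⟨hJ.1, trivial, hJ.2⟩) V a ha hn
  have e0 : kd a [fe []] = _ := h.f 0 (by decide)
  have e1 : kd a [fe [0]] = _ := h.f 1 (by decide)
  have e2 : kd a [fe [0, 2]] = _ := h.f 2 (by decide)
  have e3 : kd a [fe [1]] = _ := h.f 3 (by decide)
  have e4 : kd a [fe [0, 1]] = _ := h.f 4 (by decide)
  have e5 := (kd_fox ha fox10).trans (Nat.add_le_add_left (h.z 0 (by decide)) _)
  rw [kd_nil] at e0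
  simp only [Finset.sum_range_succ, Finset.sum_range_zero, en, F10, Z10, List.getD_cons_zero, List.getD_cons_succ] at e0 e1 e2 e3 e4 e5
  exact ⟨n, by omega, by omega, by omega, by omega, by omega, by omega⟩

/-- the data of the case -/
structure St (k : ℕ) (a : ℕ → End K V) (β : LinearMap.BilinForm K V) : Prop where
  good : Good (okA k) k a
  frm : Frm k a β
  f1 : finrank K V = 248
  f3 : kd a [fe [0]] = 134
  f33 : kd a [fe [0, 2]] = 92
  f5 : kd a [fe [1]] = 68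
  f7 : kd a [fe [0, 1]] = 38 ∨ kd a [fe [0, 1]] = 80 ∨ kd a [fe [0, 1]] = 248

omit [FiniteDimensional K V] in
theorem St.res {k k' : ℕ} (h : St k' a β) (h3 : 3 ≤ k) (hk : k ≤ k') : St k (subF a (sing k)) β :=
  ⟨good_res hk h.good, h.frm.res hk, h.f1, (kd_res a (ltW_mono h3 rfl)).trans h.f3, (kd_res a (ltW_mono h3 rfl)).trans h.f33,
    (kd_res a (ltW_mono h3 rfl)).trans h.f5, by rw [kd_res a (ltW_mono h3 rfl)]; exact h.f7⟩

theorem St.nil {k : ℕ} (h : St k a β) (hk : 3 ≤ k) : Nil a rho ∧ kd a [fe [0, 1]] = 38 := by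
  have h' := h.res le_rfl hk
  obtain ⟨n, e0, e1, e2, e3, e4, -, -, e5⟩ := s8 h'.good
  have := h'.f1
  have := h'.f3
  have := h'.f33
  have := h'.f5
  have := h'.f7
  refine ⟨(Nil.res (by decide +kernel)).1 (e5 (by omega) (by omega) (by omega)), ?_⟩
  rw [← kd_res (k := 3) a rfl]
  omega

/-- the result of `soc` for the five classes -/
theorem soc5 {C : Cls} (hC : C.cl = cl) {k : ℕ} (hc : C.chk (okA k) k = true) {M : List (ℕ × List ℕ)} {r J : ℕ}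
    {F Z : List (List ℕ)} {ρ : Ex} {nl : ℕ → Bool} (hT : tabOk C M r F Z ρ nl = true) {G : List (List (ℕ × ℕ))}
    {N : List (Ex × ℕ × List (List ℕ))} (hN : norAll M r G N = true) (hJ : J < r) (h : St k a β) (hk : 3 ≤ k)
    {U : Type*} [AddCommGroup U] [Module K U] [FiniteDimensional K U]
    (Ψ : U →ₗ[K] (X K (md M J) →ₗ[K] V ⧸ Fx a (sing k)))
    (hΨ : ∀ c, Hom (ops K (md M J) (ms M J)) (quoOp a _ (inv_Fx h.good.out)) (Ψ c)) :
    ∃ m, finrank K U ≤ finrank K (LinearMap.ker Ψ) + m ∧ ∃ (N : Submodule K V) (hN : Inv a N),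
      finrank K (Fx (subOp a N hN) (sing k)) ≤ finrank K (Fx a (sing k)) ∧ Nil (subOp a N hN) rho ∧
      finrank K N + finrank K (Fx a (sing k)) + m * en F J 0 = 248 ∧
      kd (subOp a N hN) [fe [0]] + finrank K (Fx a (sing k)) + m * en F J 1 = 134 ∧
      kd (subOp a N hN) [fe [0, 2]] + finrank K (Fx a (sing k)) + m * en F J 2 = 92 ∧
      kd (subOp a N hN) [fe [1]] + finrank K (Fx a (sing k)) + m * en F J 3 = 68 ∧
      kd (subOp a N hN) [fe [0, 1]] + finrank K (Fx a (sing k)) + m * en F J 4 = 38 := by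
  obtain ⟨m, g1, N', hN', g2⟩ := soc hc (nor_all hN hJ) h.good h.frm Ψ hΨ
  have g3 := (tab_sound (K := K) hT J hJ).2.1
  have g4 : ∀ i < 5, kd (subOp a N' hN') [fe (cl.getD i ([], 1)).1] + finrank K (Fx a (sing k)) + m * en F J i =
      kd a [fe (cl.getD i ([], 1)).1] := fun i hi => by
    have := g2 i (by rw [hC]; exact hi)
    rwa [g3 i (by rw [hC]; exact hi), Cls.f, Cls.f, Cls.w, hC] at this
  refine ⟨m, g1, N', hN', (hom_sub a N' hN').kd_le N'.injective_subtype _,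
    (h.nil hk).1.of_inj (hom_sub a N' hN') N'.injective_subtype, ?_, (g4 1 (by decide)).trans h.f3,
    (g4 2 (by decide)).trans h.f33, (g4 3 (by decide)).trans h.f5, (g4 4 (by decide)).trans (h.nil hk).2⟩
  rw [← kd_nil (subOp a N' hN'), ← h.f1, ← kd_nil a]
  exact g4 0 (by decide)

theorem t8 (h : St 3 a β) (h0 : Fx a (sing 3) = ⊥) : False := by
  obtain ⟨Ψ, g1, g2⟩ := one_step (J := 3) upP rfl rfl rfl h.good ord8
  obtain ⟨m, g3, N, hN, g4, -, e0, e1, e2, e3, e4⟩ := soc5 rfl chk8 tab8 nor8 (by decide) h le_rfl Ψ g1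
  obtain ⟨n, n0, n1, n2, n3, n4, n5, -⟩ := s8 h.good
  obtain ⟨l, l0, l1, l2, l3, l4, -, l5, -⟩ := s8 (h.good.sub hN)
  have := h.f1
  have := h.f3
  have := h.f33
  have := h.f5
  have := (h.nil le_rfl).2
  have : finrank K (Fx a (sing 3)) = 0 := by rw [h0, finrank_bot]
  simp only [en, F8, List.getD_cons_zero, List.getD_cons_succ] at e0 e1 e2 e3 e4
  omega

theorem t9a (h : St 4 a β) {U : Type*} [AddCommGroup U] [Module K U] [FiniteDimensional K U]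
    (Ψ : U →ₗ[K] (X K (md M9 4) →ₗ[K] V ⧸ Fx a (sing 4)))
    (hΨ : ∀ c, Hom (ops K (md M9 4) (ms M9 4)) (quoOp a _ (inv_Fx h.good.out)) (Ψ c)) :
    finrank K U ≤ finrank K (LinearMap.ker Ψ) + finrank K (Fx a (sing 4)) := by
  obtain ⟨m, g3, N, hN, g4, g5, e0, e1, e2, e3, e4⟩ := soc5 rfl chk9 tab9 nor9 (by decide) h (by decide) Ψ hΨ
  obtain ⟨l, -, l0, l1, l2, l3, l4, -, l5⟩ := s9 (fun _ => True) (fun _ _ _ _ => True) (fun _ _ _ _ _ _ _ => trivial)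
    (fun _ _ _ _ _ _ _ _ _ _ _ => trivial) (h.good.sub hN) g5 trivial
  simp only [en, F9, List.getD_cons_zero, List.getD_cons_succ] at e0 e1 e2 e3 e4
  omega

theorem t9b (h : St 4 a β) : ∃ (W : Submodule K V) (hW : Inv a W), Nil (subOp a W hW) (sw L9) ∧
    4 ≤ finrank K (Fx (subOp a W hW) (sing 2)) := by
  obtain ⟨W, hW, g1, g2⟩ := fitting (central cen9 h.good)
  obtain ⟨hn, h7⟩ := h.nil (by decide)
  obtain ⟨n, n', n0, n1, n2, n3, n4, n5, -⟩ := s9 (fun J => J ≠ 1 ∧ J ≠ 5) (fun _ _ _ a => Nil a (sw L9))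
    (fun _ _ _ a W hW h => h.of_surj (hom_quo a W hW) W.mkQ_surjective)
    (fun _ _ _ _ a h J _ f h1 h2 => ⟨by
      rintro rfl
      exact ne_zero_of_inj (by decide) h2 (bad_zero k9_1 h h1), by
      rintro rfl
      exact ne_zero_of_inj (by decide) h2 (bad_zero k9_5 h h1)⟩) (h.good.sub hW)
    (hn.of_inj (hom_sub a W hW) W.injective_subtype) g1
  obtain ⟨l, l', l0, l1, l2, l3, l4, -⟩ := s9 (fun J => J ≠ 0 ∧ J ≠ 2 ∧ J ≠ 3 ∧ J ≠ 4)
    (fun _ _ _ a => Function.Surjective (el a (sw L9))) (fun _ _ _ a W hW h => surj_quo h W hW)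
    (fun _ _ _ _ a h J _ f h1 h2 => ⟨by
      rintro rfl
      exact kill_zero (by decide) k9_0 h h1 h2, by
      rintro rfl
      exact kill_zero (by decide) k9_2 h h1 h2, by
      rintro rfl
      exact kill_zero (by decide) k9_3 h h1 h2, by
      rintro rfl
      exact kill_zero (by decide) k9_4 h h1 h2⟩) (h.good.quo hW) (hn.of_surj (hom_quo a W hW) W.mkQ_surjective) g2
  have e : ∀ i < 5, kd a [fe (C9.w i)] = kd (subOp a W hW) [fe (C9.w i)] + kd (quoOp a W hW) [fe (C9.w i)] := fun i hi => by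
    obtain ⟨-, o, h1, h2⟩ := C9.ord chk9 h.good hi
    exact (ses_sub a W hW).kd_fe h1 h2
  have e0 := Submodule.finrank_quotient_add_finrank W
  have e1 : kd a [fe [0]] = kd _ [fe [0]] + kd _ [fe [0]] := e 1 (by decide)
  have e2 : kd a [fe [0, 2]] = kd _ [fe [0, 2]] + kd _ [fe [0, 2]] := e 2 (by decide)
  have e3 : kd a [fe [1]] = kd _ [fe [1]] + kd _ [fe [1]] := e 3 (by decide)
  have e4 : kd a [fe [0, 1]] = kd _ [fe [0, 1]] + kd _ [fe [0, 1]] := e 4 (by decide)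
  rw [n' 1 (by decide), n' 5 (by decide)] at n0 n1 n2 n3 n4 n5
  rw [l' 0 (by decide), l' 4 (by decide)] at l0 l1 l2 l3 l4
  rw [l' 2 (by decide), l' 3 (by decide)] at l0 l2 l4
  rw [h.f1, n0, l0] at e0
  rw [h.f3, n1, l1] at e1
  rw [h.f33, n2, l2] at e2
  rw [h.f5, n3, l3] at e3
  rw [h7, n4, l4] at e4
  clear n0 n1 n2 n3 n4 l0 l1 l2 l3 l4
  exact ⟨W, hW, g1, by omega⟩

theorem t9 (h : St 4 a β) : 2 ≤ finrank K (Fx a (sing 4)) := by
  obtain ⟨W, hW, g1, g2⟩ := t9b h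
  obtain ⟨D, T, b, Φ, g3, g4⟩ := ind_tv upS rfl (bl := [1, 1, 0, 4, 0, 0, 4, 0]) rfl (h.good.sub hW)
  obtain ⟨b1, b⟩ := blocks_cons b
  obtain ⟨b2, b⟩ := blocks_cons b
  obtain ⟨b3, b⟩ := blocks_cons b
  obtain ⟨b4, b⟩ := blocks_cons b
  obtain ⟨b5, b⟩ := blocks_cons b
  obtain ⟨b6, b⟩ := blocks_cons b
  obtain ⟨b7, b⟩ := blocks_cons b
  obtain ⟨b8, b⟩ := blocks_cons b
  have hq := fx_quo h.good ord9
  have e0 : ∀ c : Fx (subOp a W hW) (sing 2), Hom (ops K D T) (subOp a W hW) (Φ c) := fun c => g3 _ c.2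
  have e1 : ∀ c : Fx (subOp a W hW) (sing 2), Hom (ops K D T) (quoOp a _ (inv_Fx h.good.out))
      (((Fx a (sing 4)).mkQ ∘ₗ W.subtype) ∘ₗ Φ c) := fun c => ((hom_quo a _ _).comp (hom_sub a W hW)).comp (e0 c)
  have v1 := fun c => (van_zero _).next (bad_zero k9_1 g1 (blk b1 (e0 c) (van_zero _)))
  have v2 := fun c => (v1 c).next (bad_zero k9_1 g1 (blk b2 (e0 c) (v1 c)))
  have v3 := fun c => tri_next (M := M9) rfl b3 hq (e1 c) ((v2 c).comp _)
  let G : Fx (subOp a W hW) (sing 2) →ₗ[K] _ := LinearMap.llcomp K _ _ _ ((Fx a (sing 4)).mkQ ∘ₗ W.subtype) ∘ₗ Φ ∘ₗ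
    Submodule.subtype _
  have i1 := t9a h (LinearMap.lcomp K _ (inc K D (0 + md M9 1 + md M9 1 + md M9 0) (md M9 4)) ∘ₗ G) fun c => blk b4 (e1 c) (v3 c)
  set U := LinearMap.ker (LinearMap.lcomp K _ (inc K _ (0 + md M9 1 + md M9 1 + md M9 0) (md M9 4)) ∘ₗ G)
  have v6 := fun c : U => tri_next (M := M9) rfl b6 hq (e1 c) (tri_next (M := M9) rfl b5 hq (e1 c) ((v3 c).next c.2))
  have i2 := t9a (U := U) h (LinearMap.lcomp K _ (inc K D (0 + md M9 1 + md M9 1 + md M9 0 + md M9 4 + md M9 0 + md M9 0) (md M9 4)) ∘ₗ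
    G ∘ₗ U.subtype) fun c : U => by exact blk b7 (e1 c.1) (v6 c)
  set U' := LinearMap.ker (LinearMap.lcomp K _ (inc K _ (0 + md M9 1 + md M9 1 + md M9 0 + md M9 4 + md M9 0 + md M9 0)
    (md M9 4)) ∘ₗ G ∘ₗ U.subtype)
  have i3 : finrank K U' ≤ finrank K (Fx a (sing 4)) := by
    refine LinearMap.finrank_le_finrank_of_injective
      (f := (W.subtype ∘ₗ Submodule.subtype _ ∘ₗ U.subtype ∘ₗ U'.subtype).codRestrict _ fun c => ?_)
      fun x y e => by have := congrArg Subtype.val e; exact Subtype.ext (Subtype.ext (Subtype.ext (Subtype.ext this)))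
    have e3 := (blocks_nil b ▸ tri_next (M := M9) rfl b8 hq (e1 c.1.1) ((v6 c.1).next c.2)).zero
    obtain ⟨x, hx⟩ := g4 c.1.1
    have e4 : (Fx a (sing 4)).mkQ (W.subtype (Φ c.1.1 x)) = 0 := LinearMap.congr_fun e3 x
    rw [hx] at e4
    exact (Submodule.Quotient.mk_eq_zero _).1 e4
  omega

theorem t10 (h : St 5 a β) (h0 : Fx a (sing 5) = ⊥) : False := by
  obtain ⟨Ψ, g1, g2⟩ := one_step (J := 1) (allN_spec upT (by decide : 0 < 6)) rfl rfl rfl h.good ord10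
  obtain ⟨m, g3, N, hN, g4, g5, e0, e1, e2, e3, e4⟩ := soc5 rfl chk10 tab10 nor10 (by decide) h (by decide) Ψ g1
  obtain ⟨l, l0, l1, l2, l3, l4, l5⟩ := s10 (h.good.sub hN) g5
  have g6 := t9 (h.res (by decide) (by decide))
  rw [Fx_res le_rfl] at g6
  have : finrank K (Fx a (sing 5)) = 0 := by rw [h0, finrank_bot]
  simp only [en, F10, List.getD_cons_zero, List.getD_cons_succ] at e0 e1 e2 e3 e4
  omega

end Cfsg.Agent.E8A.TwoD
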